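import Mathlib
import Cfsg.Agent.QEl.Base
import Cfsg.Agent.H39.OE5
import Cfsg.Agent.H39.EForm2
import Cfsg.Agent.OrthCount.Orders
import Cfsg.Agent.Orth.HermQuad

/-!
Primes dividing the index of an orthogonal group in the special linear group (helper13).
-/

set_option autoImplicit false
open scoped MatrixGroups
open Cfsg

namespace Cfsg.Agent.QEl

open Module Matrix QuadraticMap Cfsg.Agent.Orth Cfsg.Agent.H39 Cfsg.Agent.H39.OE Cfsg.Agent.H99

lemma card_inf_mul_right {G : Type*} [Group G] (I S : Subgroup G) : Nat.card (I ⊓ S : Subgroup G) * I.relIndex S = Nat.card S := by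
  have h := Subgroup.relIndex_mul_relIndex (⊥ : Subgroup G) (I ⊓ S) S bot_le inf_le_right
  rwa [Subgroup.relIndex_bot_left, Subgroup.relIndex_bot_left, Subgroup.inf_relIndex_right] at h

lemma card_inf_mul_left {G : Type*} [Group G] (I S : Subgroup G) : Nat.card (I ⊓ S : Subgroup G) * S.relIndex I = Nat.card I := by
  have h := Subgroup.relIndex_mul_relIndex (⊥ : Subgroup G) (I ⊓ S) I bot_le inf_le_left
  rwa [Subgroup.relIndex_bot_left, Subgroup.relIndex_bot_left, Subgroup.inf_relIndex_left] at h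

section
variable {F V : Type*} [Field F] [AddCommGroup V] [Module F V] [FiniteDimensional F V] {Q : QuadraticForm F V}

theorem det_sq_sim (hQ : (polarBilin Q).Nondegenerate) {c : F} (L : V →ₗ[F] V)
    (h : ∀ v, Q (L v) = c * Q v) : LinearMap.det L ^ 2 = c ^ Module.finrank F V := by
  classical
  let b := Module.finBasis F V
  have h1 : LinearMap.BilinForm.comp (polarBilin Q) L L = (c • polarBilin Q : LinearMap.BilinForm F V) := by
    apply LinearMap.ext₂
    intro x y
    change polar Q (L x) (L y) = c * polar Q x y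
    simp only [QuadraticMap.polar, ← map_add, h]
    ring
  have h2 := congrArg (fun B => (LinearMap.BilinForm.toMatrix b B).det) h1
  rw [LinearMap.BilinForm.toMatrix_comp b b, Matrix.det_mul, Matrix.det_mul, Matrix.det_transpose, map_smul,
    Matrix.det_smul, Fintype.card_fin, LinearMap.det_toMatrix] at h2
  have h3 : (LinearMap.BilinForm.toMatrix b (polarBilin Q)).det ≠ 0 :=
    (LinearMap.BilinForm.nondegenerate_iff_det_ne_zero b).1 hQ
  have h4 : (LinearMap.det L ^ 2 - c ^ Module.finrank F V) * (LinearMap.BilinForm.toMatrix b (polarBilin Q)).det = 0 := by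
    linear_combination h2
  exact sub_eq_zero.1 ((mul_eq_zero.1 h4).resolve_right h3)

end

section
variable {F : Type*} [Field F] [Fintype F] {n : ℕ} {p : ℕ} [Fact p.Prime] [CharP F p] {r : ℕ} [Fact r.Prime]

/-- index of the isometries of determinant one -/
lemma not_dvd_relIndex_det (hr2 : r ≠ 2) {Q : QuadraticForm F (Fin n → F)} (hQ : (polarBilin Q).Nondegenerate) :
    ¬ r ∣ (Cfsg.Geo.specialLinear (Fin n) F).relIndex (Cfsg.isometryGroup F (⇑Q)) := by
  intro h
  have hr : r.Prime := Fact.out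
  let φ : Cfsg.isometryGroup F (⇑Q) →* Fˣ := (Matrix.GeneralLinearGroup.det : GL (Fin n) F →* Fˣ).comp (Cfsg.isometryGroup F (⇑Q)).subtype
  have h1 : (Cfsg.Geo.specialLinear (Fin n) F).subgroupOf (Cfsg.isometryGroup F (⇑Q)) = φ.ker := by
    ext x
    rfl
  rw [Subgroup.relIndex, h1, Subgroup.index_ker] at h
  obtain ⟨y, hy⟩ := exists_prime_orderOf_dvd_card' r h
  obtain ⟨g, hg⟩ := y.2
  have h2 : y ^ 2 = 1 := by
    apply Subtype.ext
    rw [SubmonoidClass.coe_pow, ← hg]
    apply Units.ext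
    change ((g : GL (Fin n) F) : Matrix (Fin n) (Fin n) F).det ^ 2 = 1
    have h3 := det_sq_sim hQ (c := 1) (Matrix.toLin' ((g : GL (Fin n) F) : Matrix (Fin n) (Fin n) F)) (fun v => by
      rw [one_mul]
      exact g.2 v 0)
    rw [LinearMap.det_toLin', one_pow] at h3
    exact h3
  have h4 := orderOf_dvd_of_pow_eq_one h2
  rw [hy] at h4
  exact hr2 ((Nat.prime_dvd_prime_iff_eq hr Nat.prime_two).mp h4)

lemma isom_le_sim (Q : QuadraticForm F (Fin n → F)) : Cfsg.isometryGroup F (⇑Q) ≤ Cfsg.Geo.quadSimilarityGroup (⇑Q) := by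
  intro g hg
  exact ⟨1, fun v => by rw [Units.val_one, one_mul]; exact hg v 0⟩

omit [Fintype F] in
lemma card_SL_eq (n : ℕ) : Nat.card (Cfsg.Geo.specialLinear (Fin n) F) = Nat.card (Matrix.SpecialLinearGroup (Fin n) F) := by
  have e1 : Cfsg.Geo.specialLinear (Fin n) F = (Matrix.SpecialLinearGroup.toGL : Matrix.SpecialLinearGroup (Fin n) F →* GL (Fin n) F).range := by
    ext g
    constructor
    · intro hg
      have h6 : (g : Matrix (Fin n) (Fin n) F).det = 1 := congrArg Units.val hg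
      exact ⟨⟨(g : Matrix (Fin n) (Fin n) F), h6⟩, Units.ext rfl⟩
    · rintro ⟨x, rfl⟩
      exact Units.ext x.2
  have e2 : Function.Injective (Matrix.SpecialLinearGroup.toGL : Matrix.SpecialLinearGroup (Fin n) F →* GL (Fin n) F) := by
    intro a b hab
    apply Subtype.ext
    exact congrArg (fun g : GL (Fin n) F => (g : Matrix (Fin n) (Fin n) F)) hab
  rw [e1]
  exact (Nat.card_congr (MonoidHom.ofInjective e2).toEquiv).symm

/-- the arithmetic of the index -/
theorem dvd_of_dvd_relIndex (hn : 0 < n) (hr2 : r ≠ 2) {Q : QuadraticForm F (Fin n → F)} (hQ : (polarBilin Q).Nondegenerate)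
    {A B C P : ℕ} (hA : Nat.card (GL (Fin n) F) = A * P) (hP : 0 < P) (hB : Nat.card (Cfsg.isometryGroup F (⇑Q)) * C = B * P)
    (h : r ∣ (Cfsg.Geo.quadSimilarityGroup (⇑Q)).relIndex (Cfsg.Geo.specialLinear (Fin n) F)) : r ∣ A * C := by
  have hr : r.Prime := Fact.out
  set I := Cfsg.isometryGroup F (⇑Q) with hI
  set S := Cfsg.Geo.specialLinear (Fin n) F with hS
  have h1 : r ∣ I.relIndex S := h.trans (Subgroup.relIndex_dvd_of_le_left _ (isom_le_sim Q))
  obtain ⟨t, ht⟩ := h1
  have h2 : Nat.card (I ⊓ S : Subgroup (GL (Fin n) F)) * I.relIndex S = Nat.card S := card_inf_mul_right I S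
  have h3 : Nat.card (I ⊓ S : Subgroup (GL (Fin n) F)) * S.relIndex I = Nat.card I := card_inf_mul_left I S
  have h4 : Nat.card S = Nat.card (Matrix.SpecialLinearGroup (Fin n) F) := card_SL_eq n
  have h5 := H4.card_SL_mul (F := F) n hn
  have hD := not_dvd_relIndex_det (r := r) hr2 hQ
  rw [← hI, ← hS] at hD
  set D := S.relIndex I with hD'
  rw [← h4, ← h2, ht, hA] at h5
  rw [← h3] at hB
  have h6 : (r * (t * (Fintype.card F - 1) * B)) * P = (A * D * C) * P := by
    have e1 : (Fintype.card F - 1) * (Nat.card (I ⊓ S : Subgroup (GL (Fin n) F)) * (r * t)) * (D * C) = A * P * (D * C) := by rw [h5]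
    calc (r * (t * (Fintype.card F - 1) * B)) * P = r * t * (Fintype.card F - 1) * (B * P) := by ring
      _ = r * t * (Fintype.card F - 1) * (Nat.card (I ⊓ S : Subgroup (GL (Fin n) F)) * D * C) := by rw [hB]
      _ = (Fintype.card F - 1) * (Nat.card (I ⊓ S : Subgroup (GL (Fin n) F)) * (r * t)) * (D * C) := by ring
      _ = (A * D * C) * P := by rw [e1]; ring
  have h7 := Nat.eq_of_mul_eq_mul_right hP h6
  have h8 : r ∣ A * D * C := ⟨_, h7.symm⟩
  rw [mul_right_comm] at h8
  exact (hr.dvd_mul.mp h8).resolve_right hD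

lemma not_dvd_odd_prod (hr2 : r ≠ 2) (hrp : r ≠ p) (he : Even (orderOf ((Fintype.card F : ℕ) : ZMod r))) (m a : ℕ) :
    ¬ r ∣ Fintype.card F ^ a * ∏ i ∈ Finset.range m, (Fintype.card F ^ (2 * i + 1) - 1) := by
  intro h
  have hr : r.Prime := Fact.out
  have hq1 : 1 < Fintype.card F := Fintype.one_lt_card
  rcases hr.dvd_mul.mp h with h | h
  · exact prime_not_dvd_card hrp (hr.dvd_of_dvd_pow h)
  · obtain ⟨i, -, hi⟩ := (Nat.Prime.prime hr).exists_mem_finset_dvd h
    rw [dvd_pow_sub_one_iff (by omega)] at hi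
    obtain ⟨a, ha⟩ := he
    obtain ⟨b, hb⟩ := hi
    rw [ha, ← two_mul, mul_assoc] at hb
    omega

/-- the two possibilities for primes dividing the index -/
theorem even_case (h2 : (2 : F) ≠ 0) (hn : 0 < n) (hr2 : r ≠ 2) (hrp : r ≠ p) {Q : QuadraticForm F (Fin n → F)} (hQ : (polarBilin Q).Nondegenerate)
    (he : Even (orderOf ((Fintype.card F : ℕ) : ZMod r)))
    (h : r ∣ (Cfsg.Geo.quadSimilarityGroup (⇑Q)).relIndex (Cfsg.Geo.specialLinear (Fin n) F)) :
    ∃ k, k * orderOf ((Fintype.card F : ℕ) : ZMod r) = n ∧ (PT Q ⊤ ↔ ¬ Even k) := by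
  have hr : r.Prime := Fact.out
  have hq1 : 1 < Fintype.card F := Fintype.one_lt_card
  have hfn : finrank F (Fin n → F) = n := by simp
  have hqc : Nat.card F = Fintype.card F := Nat.card_eq_fintype_card
  have hPpos : ∀ m, 0 < ∏ i ∈ Finset.range m, (Fintype.card F ^ (2 * (i + 1)) - 1) := by
    intro m
    apply Finset.prod_pos
    intro i _
    have : 1 < Fintype.card F ^ (2 * (i + 1)) := Nat.one_lt_pow (by omega) hq1
    omega
  have hr2' : ¬ r ∣ 2 := fun h => hr2 ((Nat.prime_dvd_prime_iff_eq hr Nat.prime_two).mp h)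
  rcases Nat.even_or_odd' n with ⟨m, hm | hm⟩
  · have hm1 : 1 ≤ m := by omega
    have hGL := card_GL_qfac (F := F) (n := n)
    rw [hm, qfac_two_mul, ← mul_assoc] at hGL
    rw [← hm] at hGL
    have hqm : 1 < Fintype.card F ^ m := Nat.one_lt_pow (by omega) hq1
    have hfac : Fintype.card F ^ (2 * m) - 1 = (Fintype.card F ^ m - 1) * (Fintype.card F ^ m + 1) := by
      obtain ⟨a, ha⟩ : ∃ a, Fintype.card F ^ m = a + 1 := ⟨Fintype.card F ^ m - 1, by omega⟩
      rw [mul_comm 2 m, pow_mul, ha, Nat.add_sub_cancel]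
      have : (a + 1) ^ 2 = a * (a + 1 + 1) + 1 := by ring
      omega
    have hPm : ∏ i ∈ Finset.range m, (Fintype.card F ^ (2 * (i + 1)) - 1) =
        (∏ i ∈ Finset.range (m - 1), (Fintype.card F ^ (2 * (i + 1)) - 1)) * ((Fintype.card F ^ m - 1) * (Fintype.card F ^ m + 1)) := by
      obtain ⟨m', rfl⟩ : ∃ m', m = m' + 1 := ⟨m - 1, by omega⟩
      rw [Finset.prod_range_succ, Nat.add_sub_cancel, hfac]
    rcases classify_even hm1 (by rw [hfn, hm]) hQ with ⟨g, hg⟩ | ⟨ζ, hζ, g, hg⟩
    · have hcI : Nat.card (Cfsg.isometryGroup F (⇑Q)) = 2 * Fintype.card F ^ (m * (m - 1)) * (Fintype.card F ^ m - 1) *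
          ∏ i ∈ Finset.range (m - 1), (Fintype.card F ^ (2 * (i + 1)) - 1) := by
        rw [← card_OGrp, Nat.card_congr (OGrpCongr g hg).toEquiv, card_OGrp, ← hqc]
        exact OrthCount.order_plus m hm1
      have h1 := dvd_of_dvd_relIndex hn hr2 hQ (C := Fintype.card F ^ m + 1) (B := 2 * Fintype.card F ^ (m * (m - 1))) hGL (hPpos m) (by
        rw [hcI, hPm]
        ring) h
      have h3 := (hr.dvd_mul.mp h1).resolve_left (not_dvd_odd_prod hr2 hrp he m _)
      have h4 : r ∣ Fintype.card F ^ (2 * m) - 1 := by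
        rw [hfac]
        exact h3.mul_left _
      have h5 : ¬ orderOf ((Fintype.card F : ℕ) : ZMod r) ∣ m := by
        intro h6
        rw [← dvd_pow_sub_one_iff (r := r) (q := Fintype.card F) (by omega)] at h6
        apply hr2'
        have h7 := Nat.dvd_sub h3 h6
        have h8 : Fintype.card F ^ m + 1 - (Fintype.card F ^ m - 1) = 2 := by omega
        rw [h8] at h7
        exact h7
      rw [dvd_pow_sub_one_iff (by omega)] at h4
      obtain ⟨k, hk⟩ := h4
      refine ⟨k, by rw [hm, hk, mul_comm], ?_⟩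
      refine iff_of_true ?_ ?_
      · have h9 : PT (qfPlus m F) ⊤ := ⟨U0 m F, le_top, TS_U0 m F, by rw [finrank_U0, finrank_top, finrank_V]⟩
        have h10 := pt_range_iff (f := (g : (Fin n → F) →ₗ[F] (Fin m ⊕ Fin m → F))) g.injective hg
        rw [LinearEquiv.range] at h10
        exact h10.mp h9
      · rintro ⟨k', hk'⟩
        apply h5
        refine ⟨k', ?_⟩
        rw [hk', mul_add] at hk
        omega
    · have han := aniso_of_root hζ
      have hcI : Nat.card (Cfsg.isometryGroup F (⇑Q)) = 2 * Fintype.card F ^ ((m - 1 + 1) * (m - 1)) * (Fintype.card F ^ (m - 1 + 1) + 1) *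
          ∏ i ∈ Finset.range (m - 1), (Fintype.card F ^ (2 * (i + 1)) - 1) := by
        rw [← card_OGrp, Nat.card_congr (OGrpCongr g hg).toEquiv, card_OGrp, ← hqc]
        exact OrthCount.order_minus (m - 1) (OrthCount.aniso_of han)
      rw [Nat.sub_add_cancel hm1] at hcI
      have h1 := dvd_of_dvd_relIndex hn hr2 hQ (C := Fintype.card F ^ m - 1) (B := 2 * Fintype.card F ^ (m * (m - 1))) hGL (hPpos m) (by
        rw [hcI, hPm]
        ring) h
      have h3 := (hr.dvd_mul.mp h1).resolve_left (not_dvd_odd_prod hr2 hrp he m _)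
      rw [dvd_pow_sub_one_iff (by omega)] at h3
      obtain ⟨k, hk⟩ := h3
      refine ⟨2 * k, by rw [hm, hk]; ring, ?_⟩
      refine iff_of_false ?_ ?_
      · intro h9
        have h10 := pt_range_iff (f := (g : (Fin n → F) →ₗ[F] ((Fin (m - 1) ⊕ Fin (m - 1)) ⊕ Fin 2 → F))) g.injective hg
        rw [LinearEquiv.range] at h10
        have h11 := fun U hU => TS_lt_minus hm1 (aniso_of_root hζ) (F := F) U hU
        rw [← not_pt_iff (finrank_Vm hm1)] at h11
        exact h11 (h10.mpr h9)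
      · intro h9
        exact h9 (even_two_mul k)
  · exfalso
    have hGL := card_GL_qfac (F := F) (n := n)
    rw [hm, qfac_succ, qfac_two_mul] at hGL
    rw [← hm] at hGL
    have hcI : Nat.card (Cfsg.isometryGroup F (⇑Q)) = 2 * Fintype.card F ^ (m ^ 2) * ∏ i ∈ Finset.range m, (Fintype.card F ^ (2 * (i + 1)) - 1) := by
      obtain ⟨g⟩ := EForm.exists_transport h2 hQ (n := m) (by rw [hfn, hm])
      rw [← card_OGrp, Nat.card_congr g.toEquiv, card_OGrp, ← hqc]
      exact OrthCount.order_odd h2 m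
    have h1 := dvd_of_dvd_relIndex hn hr2 hQ (C := 1) (B := 2 * Fintype.card F ^ (m ^ 2))
      (A := Fintype.card F ^ (∑ j ∈ Finset.range n, j) * (∏ i ∈ Finset.range (m + 1), (Fintype.card F ^ (2 * i + 1) - 1)))
      (P := ∏ i ∈ Finset.range m, (Fintype.card F ^ (2 * (i + 1)) - 1)) (by
        rw [hGL, Finset.prod_range_succ, hm]
        ring) (hPpos m) (by
        rw [hcI, mul_one]) h
    rw [mul_one] at h1
    exact not_dvd_odd_prod hr2 hrp he (m + 1) _ h1

end

end Cfsg.Agent.QEl
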