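import Mathlib
import Cfsg.Agent.QEl.Ord
import Cfsg.Agent.H99.SubfieldR

/-!
Elements of prime order without similar copies in orthogonal groups (helper13).
-/

set_option autoImplicit false
open scoped MatrixGroups
open Cfsg

namespace Cfsg.Agent.QEl

open Module Matrix QuadraticMap Cfsg.Agent.Orth Cfsg.Agent.H39 Cfsg.Agent.H39.OE Cfsg.Agent.H99

section
variable {F : Type*} [Field F] {n : ℕ}

/-- all elements of order `r` fix a point -/
def AllFix (Q₀ : QuadraticForm F (Fin n → F)) (r : ℕ) : Prop :=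
  ∀ X : Matrix.SpecialLinearGroup (Fin n) F,
    (∃ z : F, ((X ^ r : Matrix.SpecialLinearGroup (Fin n) F) : Matrix (Fin n) (Fin n) F) = z • (1 : Matrix (Fin n) (Fin n) F)) →
    (∀ z : F, (X : Matrix (Fin n) (Fin n) F) ≠ z • (1 : Matrix (Fin n) (Fin n) F)) →
    ∃ Q' : QuadraticForm F (Fin n → F), (polarBilin Q').Nondegenerate ∧
      (∃ e : (Fin n → F) ≃ₗ[F] (Fin n → F), ∀ v, Q₀ (e v) = Q' v) ∧
      ∃ μ : F, μ ≠ 0 ∧ ∀ v, Q' ((X : Matrix (Fin n) (Fin n) F) *ᵥ v) = μ * Q' v

/-- transvections -/
theorem neg_char {p : ℕ} [Fact p.Prime] [CharP F p] (h2 : (2 : F) ≠ 0) (hn : 3 ≤ n) {Q₀ : QuadraticForm F (Fin n → F)}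
    (H : AllFix Q₀ p) : False := by
  have hp : p.Prime := Fact.out
  set i0 : Fin n := ⟨0, by omega⟩ with hi0
  set i1 : Fin n := ⟨1, by omega⟩ with hi1
  have h01 : i0 ≠ i1 := by
    intro h
    have := congrArg Fin.val h
    simp [hi0, hi1] at this
  have hmv : ∀ (c : F) (v : Fin n → F), Matrix.transvection i0 i1 c *ᵥ v = v + (c * v i1) • Pi.single i0 (1 : F) := by
    intro c v
    rw [Matrix.transvection, Matrix.add_mulVec, Matrix.one_mulVec]
    congr 1
    ext j
    simp only [Matrix.mulVec, dotProduct, Matrix.single_apply, Pi.smul_apply, smul_eq_mul]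
    by_cases hj : j = i0
    · subst hj
      simp
    · simp [hj, Ne.symm hj]
  let X : Matrix.SpecialLinearGroup (Fin n) F := ⟨Matrix.transvection i0 i1 1, Matrix.det_transvection_of_ne i0 i1 h01 1⟩
  have hpow : ∀ k : ℕ, (Matrix.transvection i0 i1 (1 : F)) ^ k = Matrix.transvection i0 i1 (k : F) := by
    intro k
    induction k with
    | zero => simp
    | succ k ih =>
      rw [pow_succ, ih, Matrix.transvection_mul_transvection_same _ _ h01, Nat.cast_succ]
  obtain ⟨Q', hND, -, μ, hμ, hsim⟩ := H X ⟨1, by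
    rw [Matrix.SpecialLinearGroup.coe_pow]
    change (Matrix.transvection i0 i1 (1 : F)) ^ p = _
    rw [hpow, CharP.cast_eq_zero, Matrix.transvection_zero, one_smul]⟩ (by
    intro z hz
    have h1 := congrFun (congrFun hz i0) i1
    change Matrix.transvection i0 i1 (1 : F) i0 i1 = _ at h1
    rw [Matrix.transvection, Matrix.add_apply, Matrix.single_apply_same, Matrix.one_apply_ne h01, Matrix.smul_apply,
      Matrix.one_apply_ne h01, smul_zero, zero_add] at h1
    exact one_ne_zero h1)
  have hμ1 : μ = 1 := by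
    have h1 := mu_pow (by omega) hND (Matrix.transvection i0 i1 (1 : F)) hsim p (by
      rw [hpow, CharP.cast_eq_zero, Matrix.transvection_zero])
    have h3 : (μ - 1) ^ p = 0 := by
      rw [sub_pow_char, h1, one_pow, sub_self]
    exact sub_eq_zero.mp (pow_eq_zero_iff hp.ne_zero |>.mp h3)
  set e0 : Fin n → F := Pi.single i0 (1 : F) with he0
  have hkey : ∀ v : Fin n → F, v i1 ≠ 0 → polar Q' v e0 = - (v i1 * Q' e0) := by
    intro v hv
    have h1 := hsim v
    change Q' (Matrix.transvection i0 i1 (1 : F) *ᵥ v) = _ at h1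
    rw [hmv, hμ1, one_mul, one_mul, qadd, qsmul, psr] at h1
    have h3 : v i1 * (polar Q' v e0 + v i1 * Q' e0) = 0 := by linear_combination h1
    have h4 := (mul_eq_zero.mp h3).resolve_left hv
    linear_combination h4
  have he1 : (Pi.single i1 (1 : F) : Fin n → F) i1 = 1 := by simp
  have hkey0 : ∀ v : Fin n → F, v i1 = 0 → polar Q' v e0 = 0 := by
    intro v hv
    have h1 := hkey (Pi.single i1 (1 : F)) (by rw [he1]; exact one_ne_zero)
    have h3 := hkey (Pi.single i1 (1 : F) + v) (by rw [Pi.add_apply, he1, hv, add_zero]; exact one_ne_zero)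
    rw [pal, h1, Pi.add_apply, he1, hv, add_zero] at h3
    linear_combination h3
  have hQe0 : Q' e0 = 0 := by
    have h1 := hkey0 e0 (by rw [he0]; simp [h01.symm])
    rw [pself] at h1
    exact (mul_eq_zero.mp h1).resolve_left h2
  have hrad : e0 = 0 := by
    apply hND.1
    intro v
    change polar Q' e0 v = 0
    rw [pc]
    by_cases hv : v i1 = 0
    · exact hkey0 v hv
    · rw [hkey v hv, hQe0, mul_zero, neg_zero]
  have h5 := congrFun hrad i0
  rw [he0] at h5
  simp at h5

end

section
variable {F : Type*} [Field F] [Fintype F] [DecidableEq F] {n : ℕ} {p : ℕ} [Fact p.Prime] [CharP F p] {r : ℕ} [Fact r.Prime]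

lemma card_three' (S T : Finset (Fin n)) (hST : Disjoint S T) (α β : F) (hαβ : α ≠ β) (hα : α ≠ 1) (hβ : β ≠ 1)
    (l : F) : (Finset.univ.filter (fun j => (if j ∈ S then α else if j ∈ T then β else (1 : F)) = l)).card =
      if l = α then S.card else if l = β then T.card else if l = 1 then n - S.card - T.card else 0 := by
  have hTS : ∀ j ∈ T, j ∉ S := fun j hj hs => Finset.disjoint_left.mp hST hs hj
  by_cases h1 : l = α
  · rw [if_pos h1]
    congr 1
    ext j
    simp only [Finset.mem_filter, Finset.mem_univ, true_and, h1]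
    by_cases hs : j ∈ S
    · simp [hs]
    · by_cases ht : j ∈ T
      · simp [hs, ht, hαβ.symm]
      · simp [hs, ht, hα.symm]
  · rw [if_neg h1]
    by_cases h2 : l = β
    · rw [if_pos h2]
      congr 1
      ext j
      simp only [Finset.mem_filter, Finset.mem_univ, true_and, h2]
      by_cases ht : j ∈ T
      · simp [hTS j ht, ht]
      · by_cases hs : j ∈ S
        · simp [hs, ht, hαβ]
        · simp [hs, ht, hβ.symm]
    · rw [if_neg h2]
      by_cases h3 : l = 1
      · rw [if_pos h3]
        have h4 : Finset.univ.filter (fun j => (if j ∈ S then α else if j ∈ T then β else (1 : F)) = l) = (S ∪ T)ᶜ := by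
          ext j
          simp only [Finset.mem_filter, Finset.mem_univ, true_and, h3, Finset.mem_compl, Finset.mem_union, not_or]
          by_cases hs : j ∈ S
          · simp [hs, hα]
          · by_cases ht : j ∈ T
            · simp [hs, ht, hβ]
            · simp [hs, ht]
        rw [h4, Finset.card_compl, Finset.card_union_of_disjoint hST, Fintype.card_fin, Nat.sub_sub]
      · rw [if_neg h3, Finset.card_eq_zero, Finset.filter_eq_empty_iff]
        intro j _ h
        split_ifs at h
        · exact h1 h.symm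
        · exact h2 h.symm
        · exact h3 h.symm

/-- diagonal elements with eigenvalue `w` dominant -/
theorem neg_diag {Q₀ : QuadraticForm F (Fin n → F)} (H : AllFix Q₀ r) (w α β : F) (a b : ℕ) (hab : a + b < n) (ha0 : 0 < a)
    (ha : a < n - a - b) (hb : b < n - a - b) (hαβ : α ≠ β) (hα1 : α ≠ 1) (hβ1 : β ≠ 1) (hαα : α ^ 2 ≠ 1)
    (hαβ' : α * β = 1 → b ≠ a) (hαr : α ^ r = 1) (hβr : β ^ r = 1) (hprod : w ^ n * (α ^ a * β ^ b) = 1) : False := by
  have hr : r.Prime := Fact.out
  have hn0 : 0 < n := by omega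
  have hw0 : w ≠ 0 := by
    rintro rfl
    rw [zero_pow hn0.ne', zero_mul] at hprod
    exact zero_ne_one hprod
  have hα0 : α ≠ 0 := by
    rintro rfl
    rw [zero_pow hr.ne_zero] at hαr
    exact zero_ne_one hαr
  set S : Finset (Fin n) := Finset.univ.filter (fun j : Fin n => j.val < a) with hS
  set T : Finset (Fin n) := Finset.univ.filter (fun j : Fin n => a ≤ j.val ∧ j.val < a + b) with hTd
  have hSc : S.card = a := by
    rw [hS, Fin.card_filter_val_lt]
    exact min_eq_right (by omega)
  have hST : Disjoint S T := by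
    rw [Finset.disjoint_left]
    intro j h1 h2
    rw [hS, Finset.mem_filter] at h1
    rw [hTd, Finset.mem_filter] at h2
    omega
  have hTc : T.card = b := by
    have h1 : S ∪ T = Finset.univ.filter (fun j : Fin n => j.val < a + b) := by
      ext j
      simp only [hS, hTd, Finset.mem_union, Finset.mem_filter, Finset.mem_univ, true_and]
      omega
    have h2 := Finset.card_union_of_disjoint hST
    rw [h1, Fin.card_filter_val_lt, hSc, min_eq_right (by omega)] at h2
    omega
  set c : Fin n → F := fun j => if j ∈ S then α else if j ∈ T then β else 1 with hc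
  have hN : ∀ l : F, (Finset.univ.filter (fun j => w * c j = w * l)).card =
      if l = α then a else if l = β then b else if l = 1 then n - a - b else 0 := by
    intro l
    have h1 : Finset.univ.filter (fun j => w * c j = w * l) = Finset.univ.filter (fun j => c j = l) := by
      apply Finset.filter_congr
      intro j _
      exact mul_right_inj' hw0
    rw [h1, hc, card_three' S T hST α β hαβ hα1 hβ1, hSc, hTc]
  obtain ⟨X, hX1, hX2⟩ := sl_exists_diag (fun j => w * c j) (by
    rw [Finset.prod_mul_distrib, Finset.prod_const, Finset.card_univ, Fintype.card_fin]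
    have h1 : ∀ j, c j = (if j ∈ S then α else 1) * (if j ∈ T then β else 1) := by
      intro j
      rw [hc]
      by_cases hs : j ∈ S
      · simp only
        rw [if_pos hs, if_pos hs, if_neg (Finset.disjoint_left.mp hST hs), mul_one]
      · simp only
        rw [if_neg hs, if_neg hs, one_mul]
    rw [Finset.prod_congr rfl (fun j _ => h1 j), Finset.prod_mul_distrib, Finset.prod_ite_mem, Finset.prod_ite_mem, Finset.univ_inter,
      Finset.univ_inter, Finset.prod_const, Finset.prod_const, hSc, hTc, hprod]) r (w ^ r) (by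
    intro j
    rw [mul_pow, hc]
    simp only
    split_ifs
    · rw [hαr, mul_one]
    · rw [hβr, mul_one]
    · rw [one_pow, mul_one])
  obtain ⟨Q', hND, -, μ, hμ, hsim⟩ := H X ⟨_, hX2⟩ (by
    intro z hz
    rw [hX1, Matrix.smul_one_eq_diagonal, Matrix.diagonal_eq_diagonal_iff] at hz
    have h1 := hz ⟨0, hn0⟩
    have h2 := hz ⟨a + b, hab⟩
    have h3 : c ⟨0, hn0⟩ = α := by
      rw [hc]
      simp only [hS, Finset.mem_filter, Finset.mem_univ, true_and]
      rw [if_pos ha0]
    have h4 : c ⟨a + b, hab⟩ = 1 := by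
      rw [hc]
      simp only [hS, hTd, Finset.mem_filter, Finset.mem_univ, true_and]
      rw [if_neg (by omega), if_neg (by omega)]
    rw [h3] at h1
    rw [h4] at h2
    exact hα1 (mul_left_cancel₀ hw0 (h1.trans h2.symm)))
  rw [hX1] at hsim
  have hμ2 : μ = w * w := by
    have h1 := card_symm hND hμ hsim (a := w * 1) (a' := w * (μ * w⁻¹ * w⁻¹)) (by field_simp)
    rw [hN, hN, if_neg hα1.symm, if_neg hβ1.symm, if_pos rfl] at h1
    split_ifs at h1 with h2 h3 h4
    · omega
    · omega
    · field_simp at h4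
      rw [h4, pow_two]
    · omega
  have h1 := card_symm hND hμ hsim (a := w * α) (a' := w * α⁻¹) (by rw [hμ2]; field_simp)
  rw [hN, hN, if_pos rfl] at h1
  split_ifs at h1 with h2 h3 h4
  · apply hαα
    rw [pow_two]
    nth_rewrite 1 [← h2]
    exact inv_mul_cancel₀ hα0
  · exact hαβ' (by rw [← h3]; exact mul_inv_cancel₀ hα0) h1.symm
  · exact hα1 (inv_eq_one.mp h4)
  · omega

/-- elements with one block of odd size -/
theorem neg_odd (hn : 0 < n) (hr2 : r ≠ 2) (hrp : r ≠ p) (hdq : ¬ r ∣ Fintype.card F - 1)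
    (hi : Odd (orderOf ((Fintype.card F : ℕ) : ZMod r))) (hin : orderOf ((Fintype.card F : ℕ) : ZMod r) ≤ n)
    {Q₀ : QuadraticForm F (Fin n → F)} (H : AllFix Q₀ r) : False := by
  have hr : r.Prime := Fact.out
  have hipos : 0 < orderOf ((Fintype.card F : ℕ) : ZMod r) := H99.orderOf_pos_of_not_dvd (H99.prime_not_dvd_card hrp)
  obtain ⟨x, hx1, hx2, hx3, hx4⟩ := H99.sl_exists_order_eq (F := F) (n := n) hn hrp hdq 1 one_pos (by rw [one_mul]; exact hin)
  obtain ⟨Q', hND, -, μ, hμ, hsim⟩ := H x ⟨1, hx1⟩ hx2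
  have hx1' : (x : Matrix (Fin n) (Fin n) F) ^ r = 1 := by
    rw [← Matrix.SpecialLinearGroup.coe_pow, hx1, one_smul]
  have hμ1 : μ = 1 := H99.eq_one_of_pow_eq_one hdq (mu_pow hn hND _ hsim r hx1')
  have hx : ∀ v, Q' (Matrix.toLin' (x : Matrix (Fin n) (Fin n) F) v) = Q' v := by
    intro v
    have := hsim v
    rw [hμ1, one_mul] at this
    exact this
  obtain ⟨s1, s2, s3, s4, s5⟩ := H99.split_fixed (p := p) hrp (H99.polar_eform Q') (fun u v => polar_of_isom hx u v) hx3
    (W := ⊤) (fun _ _ => Submodule.mem_top) (nd_of_nondeg hND)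
  obtain ⟨⟨k, hk⟩, -⟩ := blocks (p := p) hr2 hrp hx hx3 s2 s3 s4
  have e0 : (⊤ ⊓ LinearMap.ker (Matrix.toLin' (x : Matrix (Fin n) (Fin n) F) - 1) : Submodule F (Fin n → F)) =
    LinearMap.ker (Matrix.toLin' (x : Matrix (Fin n) (Fin n) F) - 1) := top_inf_eq _
  rw [e0, finrank_top] at s5
  rw [e0] at hk
  have hfn : finrank F (Fin n → F) = n := by simp
  rw [hfn] at s5
  have hb : H99.blk r (Fintype.card F) = 2 * orderOf ((Fintype.card F : ℕ) : ZMod r) := by
    unfold H99.blk
    rw [if_neg (Nat.not_even_iff_odd.mpr hi)]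
  rw [hb] at hk
  have h6 : orderOf ((Fintype.card F : ℕ) : ZMod r) = 2 * orderOf ((Fintype.card F : ℕ) : ZMod r) * k := by omega
  rcases Nat.eq_zero_or_pos k with h | h
  · rw [h] at h6
    omega
  · nlinarith

/-- elements without fixed points with blocks of even size -/
theorem neg_even (hn : 0 < n) (hr2 : r ≠ 2) (hrp : r ≠ p) (hdq : ¬ r ∣ Fintype.card F - 1)
    (hi : Even (orderOf ((Fintype.card F : ℕ) : ZMod r))) {k : ℕ} (hk : k * orderOf ((Fintype.card F : ℕ) : ZMod r) = n)
    {Q₀ : QuadraticForm F (Fin n → F)} (ht : PT Q₀ ⊤ ↔ ¬ Even k) (H : AllFix Q₀ r) : False := by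
  have hr : r.Prime := Fact.out
  have hipos : 0 < orderOf ((Fintype.card F : ℕ) : ZMod r) := H99.orderOf_pos_of_not_dvd (H99.prime_not_dvd_card hrp)
  have hk0 : 0 < k := by
    rcases Nat.eq_zero_or_pos k with h | h
    · rw [h] at hk
      omega
    · exact h
  obtain ⟨x, hx1, hx2, hx3, hx4⟩ := H99.sl_exists_order_eq (F := F) (n := n) hn hrp hdq k hk0 hk.le
  obtain ⟨Q', hND, ⟨e, he⟩, μ, hμ, hsim⟩ := H x ⟨1, hx1⟩ hx2
  have hx1' : (x : Matrix (Fin n) (Fin n) F) ^ r = 1 := by
    rw [← Matrix.SpecialLinearGroup.coe_pow, hx1, one_smul]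
  have hμ1 : μ = 1 := H99.eq_one_of_pow_eq_one hdq (mu_pow hn hND _ hsim r hx1')
  have hx : ∀ v, Q' (Matrix.toLin' (x : Matrix (Fin n) (Fin n) F) v) = Q' v := by
    intro v
    have := hsim v
    rw [hμ1, one_mul] at this
    exact this
  have hfn : finrank F (Fin n → F) = n := by simp
  have hb : H99.blk r (Fintype.card F) = orderOf ((Fintype.card F : ℕ) : ZMod r) := by
    unfold H99.blk
    rw [if_pos hi]
  have h1 := type_blocks (p := p) hr2 hrp hx hx3 (W := ⊤) (fun _ _ => Submodule.mem_top) (nd_of_nondeg hND) (by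
    intro v _ hv
    have h5 : finrank F (LinearMap.ker (Matrix.toLin' (x : Matrix (Fin n) (Fin n) F) - 1)) = 0 := by omega
    have h6 := Submodule.finrank_eq_zero.mp h5
    have h7 : v ∈ LinearMap.ker (Matrix.toLin' (x : Matrix (Fin n) (Fin n) F) - 1) := mem_ker.mpr hv
    rw [h6] at h7
    exact (Submodule.mem_bot F).mp h7) (j := k) (by rw [finrank_top, hb, hfn, hk])
  have h3 : PT Q' ⊤ ↔ PT Q₀ ⊤ := by
    have h4 := pt_range_iff (f := (e : (Fin n → F) →ₗ[F] (Fin n → F))) e.injective he
    rw [LinearEquiv.range] at h4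
    exact h4.symm
  have hno : ¬ Odd (orderOf ((Fintype.card F : ℕ) : ZMod r)) := Nat.not_odd_iff_even.mpr hi
  rw [h3, ht] at h1
  simp only [hno, false_or] at h1
  tauto

end

end Cfsg.Agent.QEl
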