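import Mathlib
import Cfsg.Agent.QEl.Ord
import Cfsg.Agent.H99.SqForms
import Cfsg.Agent.H99.CentDet
import Cfsg.Agent.H99.ConjType

/-!
Elements of prime order with similar copies in orthogonal groups (helper13).
-/

set_option autoImplicit false
open scoped MatrixGroups
open Cfsg

namespace Cfsg.Agent.QEl

open Module Matrix QuadraticMap Cfsg.Agent.Orth

section
variable {F : Type*} [Field F]

/-- values on an orthogonal basis -/
lemma q_orth {ι V : Type*} [Fintype ι] [DecidableEq ι] [AddCommGroup V] [Module F V] {Q : QuadraticForm F V} (b : ι → V)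
    (ho : ∀ i j, i ≠ j → polar Q (b i) (b j) = 0) (a : ι → F) : Q (∑ i, a i • b i) = ∑ i, a i ^ 2 * Q (b i) := by
  have : ∀ s : Finset ι, Q (∑ i ∈ s, a i • b i) = ∑ i ∈ s, a i ^ 2 * Q (b i) := by
    intro s
    induction s using Finset.induction_on with
    | empty => simp
    | insert j s hj ih =>
      rw [Finset.sum_insert hj, Finset.sum_insert hj, qadd, ih, qsmul, psl]
      have h1 : polar Q (b j) (∑ i ∈ s, a i • b i) = 0 := by
        rw [psumr]
        apply Finset.sum_eq_zero
        intro i hi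
        rw [psr, ho j i (by rintro rfl; exact hj hi), mul_zero]
      rw [h1]
      ring
  exact this Finset.univ

variable [Finite F]

/-- an orthogonal basis with index set of the right cardinality -/
theorem exists_orth_basis {V : Type*} [AddCommGroup V] [Module F V] [FiniteDimensional F V] {Q : QuadraticForm F V}
    (hQ : (polarBilin Q).Nondegenerate) (h2 : (2 : F) ≠ 0) {ι : Type*} [Fintype ι] (h : Fintype.card ι = finrank F V) (h0 : 0 < finrank F V) :
    ∃ b : Basis ι F V, (∀ i j, i ≠ j → polar Q (b i) (b j) = 0) ∧ ∀ i, Q (b i) ≠ 0 := by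
  obtain ⟨k, hk⟩ : ∃ k, finrank F V = k + 1 := ⟨finrank F V - 1, by omega⟩
  obtain ⟨b, d, hd, ho, hb⟩ := exists_diag_basis hQ h2 hk
  have e : Fin (k + 1) ≃ ι := Fintype.equivOfCardEq (by rw [Fintype.card_fin, h, hk])
  refine ⟨b.reindex e, ?_, ?_⟩
  · intro i j hij
    rw [Basis.reindex_apply, Basis.reindex_apply]
    exact ho.p _ _ (fun h => hij (e.symm.injective h))
  · intro i
    rw [Basis.reindex_apply, hb]
    split_ifs
    · exact hd
    · exact one_ne_zero

/-- nondegenerate forms of the same odd dimension are similar -/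
theorem exists_similarity {V V' : Type*} [AddCommGroup V] [Module F V] [FiniteDimensional F V] [AddCommGroup V'] [Module F V'] [FiniteDimensional F V']
    (h2 : (2 : F) ≠ 0) {Q : QuadraticForm F V} (hQ : (polarBilin Q).Nondegenerate)
    {Q0 : QuadraticForm F V'} (hQ0 : (polarBilin Q0).Nondegenerate) {m : ℕ} (hV : finrank F V = 2 * m + 1) (hV0 : finrank F V' = 2 * m + 1) :
    ∃ (c : F) (e : V ≃ₗ[F] V'), c ≠ 0 ∧ ∀ v, Q0 (e v) = c * Q v := by
  classical
  let b := Module.finBasis F V
  let b0 := Module.finBasis F V'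
  set D := (Orth.gram Q b).det with hD
  set D0 := (Orth.gram Q0 b0).det with hD0
  have hDn : D ≠ 0 := gram_det_ne_zero hQ b
  have hD0n : D0 ≠ 0 := gram_det_ne_zero hQ0 b0
  set c : F := D * D0 with hc
  have hcn : c ≠ 0 := mul_ne_zero hDn hD0n
  let Q' : QuadraticForm F V := c • Q
  have hQ' : ∀ v, Q' v = c * Q v := fun v => rfl
  have hp : ∀ u v, polar Q' u v = c * polar Q u v := by
    intro u v
    rw [polar, polar, hQ', hQ', hQ']
    ring
  have hnd : (polarBilin Q').Nondegenerate := by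
    refine H39.EForm.nondeg_of (ε := 1) (fun u v => by rw [one_mul, pbil, pbil, pc]) ?_
    intro u hu
    refine hQ.1 u fun v => ?_
    have := hu v
    rw [pbil, hp] at this
    exact (mul_eq_zero.1 this).resolve_left hcn
  have hgram : Orth.gram Q' b = c • Orth.gram Q b := by
    ext i j
    rw [Matrix.smul_apply, Orth.gram, Orth.gram, Matrix.of_apply, Matrix.of_apply, hp, smul_eq_mul]
  have hdet : (Orth.gram Q' b).det = c ^ (2 * m + 1) * D := by
    rw [hgram, Matrix.det_smul, Fintype.card_fin, ← hD]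
    rw [hV]
  obtain ⟨e, he⟩ := exists_isom_of_disc h2 hnd hQ0 (by rw [hV, hV0]) b b0 (by
    rw [hdet]
    refine ⟨c ^ (m + 1), ?_⟩
    rw [← hD0, mul_assoc, ← hc]
    ring)
  exact ⟨c, e, hcn, he⟩

end

section
variable {F : Type*} [Field F] [Fintype F] {n : ℕ}

lemma exists_sum (h2 : (2 : F) ≠ 0) (γ z : F) (hγ : γ ≠ 0) : ∃ ps : F × F, ps.1 ^ 2 + γ * ps.2 ^ 2 = z := by
  have hc : ringChar F ≠ 2 := by
    intro h
    apply h2
    have := ringChar.Nat.cast_ringChar (R := F)
    rw [h] at this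
    exact_mod_cast this
  obtain ⟨a, b, hab⟩ := FiniteField.exists_root_sum_quadratic (R := F) (f := Polynomial.X ^ 2)
    (g := Polynomial.C γ * Polynomial.X ^ 2 - Polynomial.C z) (Polynomial.degree_X_pow 2) (by
      rw [Polynomial.degree_sub_eq_left_of_degree_lt]
      · exact Polynomial.degree_C_mul_X_pow 2 hγ
      · rw [Polynomial.degree_C_mul_X_pow 2 hγ]
        exact lt_of_le_of_lt Polynomial.degree_C_le (by norm_num)) (FiniteField.odd_card_of_char_ne_two hc)
  refine ⟨(a, b), ?_⟩
  simp only [Polynomial.eval_pow, Polynomial.eval_X, Polynomial.eval_sub, Polynomial.eval_mul, Polynomial.eval_C] at hab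
  linear_combination hab

/-- an involution pairing equal and inverse values -/
lemma exists_involution {ι : Type*} [Fintype ι] (c : ι → F) (hsym : ∀ y, Nat.card {j // c j = y} = Nat.card {j // c j = y⁻¹}) :
    ∃ σ : ι → ι, (∀ j, σ (σ j) = j) ∧ ∀ j, c (σ j) = (c j)⁻¹ := by
  classical
  obtain ⟨ε, hε⟩ := H99.exists_equiv_of_card_fiber c (fun j => (c j)⁻¹) (by
    intro y
    rw [hsym y]
    apply Nat.card_congr
    apply Equiv.subtypeEquivRight
    intro j
    exact inv_eq_iff_eq_inv.symm)
  have hε' : ∀ j, c (ε j) = (c j)⁻¹ := fun j => inv_eq_iff_eq_inv.mp (hε j)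
  have hε2 : ∀ j, c (ε.symm j) = (c j)⁻¹ := by
    intro j
    have := hε' (ε.symm j)
    rw [ε.apply_symm_apply] at this
    rw [this, inv_inv]
  let φ : F ≃ Fin (Fintype.card F) := Fintype.equivFin F
  refine ⟨fun j => if φ (c j) < φ (c j)⁻¹ then ε j else if φ (c j)⁻¹ < φ (c j) then ε.symm j else j, ?_, ?_⟩
  · intro j
    simp only
    by_cases h1 : φ (c j) < φ (c j)⁻¹
    · rw [if_pos h1, hε', inv_inv, if_neg (not_lt.mpr h1.le), if_pos h1, ε.symm_apply_apply]
    · rw [if_neg h1]
      by_cases h2 : φ (c j)⁻¹ < φ (c j)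
      · rw [if_pos h2, hε2, inv_inv, if_pos h2, ε.apply_symm_apply]
      · rw [if_neg h2, if_neg h1, if_neg h2]
  · intro j
    simp only
    split_ifs with h1 h2
    · exact hε' j
    · exact hε2 j
    · have h3 : φ (c j) = φ (c j)⁻¹ := le_antisymm (not_lt.mp h2) (not_lt.mp h1)
      exact φ.injective h3

/-- the form `∑ v_j v_{σ j}` -/
noncomputable def pairForm {ι : Type*} [Fintype ι] (σ : ι → ι) : QuadraticForm F (ι → F) :=
  ∑ j, QuadraticMap.linMulLin (LinearMap.proj j) (LinearMap.proj (σ j))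

lemma pairForm_apply {ι : Type*} [Fintype ι] (σ : ι → ι) (v : ι → F) : pairForm σ v = ∑ j, v j * v (σ j) := by
  rw [pairForm, _root_.sum_apply]
  rfl

lemma pairForm_polar {ι : Type*} [Fintype ι] (σ : ι → ι) (hσ : ∀ j, σ (σ j) = j) (u v : ι → F) :
    polar (pairForm σ) u v = 2 * ∑ j, u (σ j) * v j := by
  have h1 : ∑ j, u j * v (σ j) = ∑ j, u (σ j) * v j := by
    let e : ι ≃ ι := ⟨σ, σ, hσ, hσ⟩
    rw [← Equiv.sum_comp e]
    apply Finset.sum_congr rfl
    intro j _
    change u (σ j) * v (σ (σ j)) = _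
    rw [hσ]
  rw [QuadraticMap.polar, pairForm_apply, pairForm_apply, pairForm_apply, ← Finset.sum_sub_distrib, ← Finset.sum_sub_distrib, two_mul]
  nth_rewrite 2 [← h1]
  rw [← Finset.sum_add_distrib]
  apply Finset.sum_congr rfl
  intro j _
  rw [Pi.add_apply, Pi.add_apply]
  ring

lemma pairForm_nondegenerate {ι : Type*} [Fintype ι] (h2 : (2 : F) ≠ 0) (σ : ι → ι) (hσ : ∀ j, σ (σ j) = j) :
    (polarBilin (pairForm (F := F) σ)).Nondegenerate := by
  classical
  refine H39.EForm.nondeg_of (ε := 1) (fun u v => by rw [one_mul, pbil, pbil, pc]) ?_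
  intro u hu
  funext i
  have h1 := hu (Pi.single (σ i) 1)
  rw [pbil, pairForm_polar σ hσ] at h1
  have h3 := (mul_eq_zero.mp h1).resolve_left h2
  rw [Finset.sum_eq_single (σ i)] at h3
  · rw [hσ, Pi.single_eq_same, mul_one] at h3
    exact h3
  · intro j _ hj
    rw [Pi.single_eq_of_ne hj, mul_zero]
  · intro h
    exact absurd (Finset.mem_univ _) h

/-- elements with eigenvalue multiplicities symmetric under inversion -/
theorem pos_sym (h2 : (2 : F) ≠ 0) (hn : Odd n) {Q₀ : QuadraticForm F (Fin n → F)} (hQ : (polarBilin Q₀).Nondegenerate)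
    (x : Matrix.SpecialLinearGroup (Fin n) F) (hcs : H99.CentSurj (x : Matrix (Fin n) (Fin n) F))
    {ι : Type*} [Fintype ι] (b : Basis ι F (Fin n → F)) (c : ι → F) (hc0 : ∀ j, c j ≠ 0) (w : F) (hw : w ≠ 0)
    (hb : ∀ j, (x : Matrix (Fin n) (Fin n) F) *ᵥ (b j) = (w * c j) • b j)
    (hsym : ∀ y, Nat.card {j // c j = y} = Nat.card {j // c j = y⁻¹}) :
    ∃ P : Matrix.SpecialLinearGroup (Fin n) F,
      P⁻¹ * x * P ∈ (Cfsg.Geo.quadSimilarityGroup (⇑Q₀)).comap (Matrix.SpecialLinearGroup.toGL : Matrix.SpecialLinearGroup (Fin n) F →* GL (Fin n) F) := by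
  classical
  obtain ⟨σ, hσ, hσc⟩ := exists_involution c hsym
  obtain ⟨m, hm⟩ := hn
  have hfn : finrank F (Fin n → F) = n := by simp
  have hcard : Fintype.card ι = n := by rw [← hfn, finrank_eq_card_basis b]
  obtain ⟨s, e, hs, he⟩ := exists_similarity h2 (pairForm_nondegenerate (F := F) h2 σ hσ) hQ (m := m) (by simp [hcard, hm]) (by rw [hfn, hm])
  let D : (ι → F) →ₗ[F] (ι → F) := LinearMap.pi (fun j => (w * c j) • LinearMap.proj j)
  have hD : ∀ u j, D u j = w * c j * u j := fun u j => rfl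
  let y : (Fin n → F) →ₗ[F] (Fin n → F) := e.toLinearMap ∘ₗ D ∘ₗ e.symm.toLinearMap
  have hy : ∀ v, y v = e (D (e.symm v)) := fun v => rfl
  have hDq : ∀ u, pairForm σ (D u) = w ^ 2 * pairForm σ u := by
    intro u
    rw [pairForm_apply, pairForm_apply, Finset.mul_sum]
    apply Finset.sum_congr rfl
    intro j _
    rw [hD, hD, hσc]
    have := hc0 j
    field_simp
  apply H99.exists_conj_mem_comap' x hcs _ y ?_ (e.symm.trans b.equivFun.symm)
  · intro v
    rw [LinearEquiv.trans_apply, LinearEquiv.trans_apply, hy, e.symm_apply_apply]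
    set u := e.symm v with hu
    rw [Basis.equivFun_symm_apply, Basis.equivFun_symm_apply, Matrix.mulVec_sum]
    apply Finset.sum_congr rfl
    intro j _
    rw [Matrix.mulVec_smul, hb, smul_smul, hD]
    congr 1
    ring
  · intro g hg
    refine ⟨Units.mk0 (w ^ 2) (pow_ne_zero 2 hw), fun v => ?_⟩
    rw [hg, hy, he, hDq, Units.val_mk0]
    have h3 := he (e.symm v)
    rw [e.apply_symm_apply] at h3
    rw [h3]
    ring

/-- elements whose square is scalar -/
theorem pos_two (h2 : (2 : F) ≠ 0) (hn : 0 < n) {Q₀ : QuadraticForm F (Fin n → F)} (hQ : (polarBilin Q₀).Nondegenerate)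
    (x : Matrix.SpecialLinearGroup (Fin n) F) (z : F)
    (hz : (x : Matrix (Fin n) (Fin n) F) ^ 2 = z • (1 : Matrix (Fin n) (Fin n) F)) (hz0 : z ≠ 0) :
    ∃ P : Matrix.SpecialLinearGroup (Fin n) F,
      P⁻¹ * x * P ∈ (Cfsg.Geo.quadSimilarityGroup (⇑Q₀)).comap (Matrix.SpecialLinearGroup.toGL : Matrix.SpecialLinearGroup (Fin n) F →* GL (Fin n) F) := by
  classical
  have hcs : H99.CentSurj (x : Matrix (Fin n) (Fin n) F) := H99.centSurj_of_sq_eq hn _ z hz0 hz
  set f := Matrix.toLin' (x : Matrix (Fin n) (Fin n) F) with hf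
  have hff : ∀ v, f (f v) = z • v := by
    intro v
    rw [hf, Matrix.toLin'_apply, Matrix.toLin'_apply, Matrix.mulVec_mulVec, ← pow_two, hz, Matrix.smul_mulVec, Matrix.one_mulVec]
  have hfn : finrank F (Fin n → F) = n := by simp
  have hmem : ∀ (y : (Fin n → F) →ₗ[F] (Fin n → F)), (∀ v, Q₀ (y v) = z * Q₀ v) →
      ∀ g : GL (Fin n) F, (∀ v, (g : Matrix (Fin n) (Fin n) F) *ᵥ v = y v) → g ∈ Cfsg.Geo.quadSimilarityGroup (⇑Q₀) := by
    intro y hy g hg
    refine ⟨Units.mk0 z hz0, fun v => ?_⟩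
    rw [hg, hy, Units.val_mk0]
  by_cases hsq : ∃ w, w * w = z
  · obtain ⟨w, hw⟩ := hsq
    have hw0 : w ≠ 0 := by
      rintro rfl
      rw [mul_zero] at hw
      exact hz0 hw.symm
    obtain ⟨a, a', b, hb1, hb2⟩ := H99.sq_eigen_form z w hw hw0 h2 (Fin n → F) f hff
    have hcard : Fintype.card (Fin a ⊕ Fin a') = finrank F (Fin n → F) := by
      rw [finrank_eq_card_basis b]
    obtain ⟨d, hd1, hd2⟩ := exists_orth_basis hQ h2 hcard (by rw [hfn]; exact hn)
    let ε : Fin a ⊕ Fin a' → F := Sum.elim (fun _ => w) (fun _ => -w)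
    have hε : ∀ i, ε i ^ 2 = z := by
      rintro (i | i)
      · change w ^ 2 = z
        rw [pow_two, hw]
      · change (-w) ^ 2 = z
        rw [neg_sq, pow_two, hw]
    have hbε : ∀ i, f (b i) = ε i • b i := by
      rintro (i | i)
      · exact hb1 i
      · exact hb2 i
    let y : (Fin n → F) →ₗ[F] (Fin n → F) := d.constr F (fun i => ε i • d i)
    have hyd : ∀ i, y (d i) = ε i • d i := fun i => d.constr_basis F _ i
    apply H99.exists_conj_mem_comap' x hcs _ y (hmem y ?_) (d.equiv b (Equiv.refl _))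
    · intro v
      have h1 : (d.equiv b (Equiv.refl _)).toLinearMap ∘ₗ y = f ∘ₗ (d.equiv b (Equiv.refl _)).toLinearMap := by
        apply d.ext
        intro i
        rw [LinearMap.comp_apply, LinearMap.comp_apply, LinearEquiv.coe_coe, hyd, map_smul, Basis.equiv_apply, Equiv.refl_apply, hbε]
      exact LinearMap.congr_fun h1 v
    · intro v
      have h1 : v = ∑ i, d.repr v i • d i := (d.sum_repr v).symm
      have h2 : y v = ∑ i, (ε i * d.repr v i) • d i := by
        conv_lhs => rw [h1]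
        rw [map_sum]
        apply Finset.sum_congr rfl
        intro i _
        rw [map_smul, hyd, smul_smul, mul_comm]
      rw [h2, q_orth d hd1]
      conv_rhs => rw [h1]
      rw [q_orth d hd1, Finset.mul_sum]
      apply Finset.sum_congr rfl
      intro i _
      rw [mul_pow, hε]
      ring
  · push Not at hsq
    obtain ⟨κ, _, _, b, hb1, hb2⟩ := H99.sq_nonsquare_form z hsq (Fin n → F) f hff
    have hcard : Fintype.card (κ ⊕ κ) = finrank F (Fin n → F) := by
      rw [finrank_eq_card_basis b]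
    obtain ⟨d, hd1, hd2⟩ := exists_orth_basis hQ h2 hcard (by rw [hfn]; exact hn)
    have hps : ∀ i : κ, ∃ ps : F × F, ps.1 ^ 2 + Q₀ (d (Sum.inl i)) * Q₀ (d (Sum.inr i)) * ps.2 ^ 2 = z :=
      fun i => exists_sum h2 _ z (mul_ne_zero (hd2 _) (hd2 _))
    choose ps hps using hps
    let y : (Fin n → F) →ₗ[F] (Fin n → F) := d.constr F (Sum.elim
      (fun i => (ps i).1 • d (Sum.inl i) + (Q₀ (d (Sum.inl i)) * (ps i).2) • d (Sum.inr i))
      (fun i => (Q₀ (d (Sum.inr i)) * (ps i).2) • d (Sum.inl i) - (ps i).1 • d (Sum.inr i)))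
    have hyd1 : ∀ i, y (d (Sum.inl i)) = (ps i).1 • d (Sum.inl i) + (Q₀ (d (Sum.inl i)) * (ps i).2) • d (Sum.inr i) := by
      intro i
      exact d.constr_basis F _ (Sum.inl i)
    have hyd2 : ∀ i, y (d (Sum.inr i)) = (Q₀ (d (Sum.inr i)) * (ps i).2) • d (Sum.inl i) - (ps i).1 • d (Sum.inr i) := by
      intro i
      exact d.constr_basis F _ (Sum.inr i)
    have hyy : ∀ v, y (y v) = z • v := by
      have h1 : y ∘ₗ y = z • (LinearMap.id : (Fin n → F) →ₗ[F] (Fin n → F)) := by
        apply d.ext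
        rintro (i | i)
        · rw [LinearMap.comp_apply, hyd1, map_add, map_smul, map_smul, hyd1, hyd2, LinearMap.smul_apply, LinearMap.id_apply]
          rw [← hps i]
          module
        · rw [LinearMap.comp_apply, hyd2, map_sub, map_smul, map_smul, hyd1, hyd2, LinearMap.smul_apply, LinearMap.id_apply]
          rw [← hps i]
          module
      intro v
      exact LinearMap.congr_fun h1 v
    obtain ⟨κ', _, _, b', hb1', hb2'⟩ := H99.sq_nonsquare_form z hsq (Fin n → F) y hyy
    have hcard' : Fintype.card (κ' ⊕ κ') = finrank F (Fin n → F) := by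
      rw [finrank_eq_card_basis b']
    have hκ : Fintype.card κ' = Fintype.card κ := by
      rw [← hcard, Fintype.card_sum, Fintype.card_sum] at hcard'
      omega
    let τ : κ' ≃ κ := Fintype.equivOfCardEq hκ
    apply H99.exists_conj_mem_comap' x hcs _ y (hmem y ?_) (b'.equiv b (Equiv.sumCongr τ τ))
    · intro v
      have h1 : (b'.equiv b (Equiv.sumCongr τ τ)).toLinearMap ∘ₗ y = f ∘ₗ (b'.equiv b (Equiv.sumCongr τ τ)).toLinearMap := by
        apply b'.ext
        rintro (i | i)
        · rw [LinearMap.comp_apply, LinearMap.comp_apply, LinearEquiv.coe_coe, hb1', Basis.equiv_apply, Basis.equiv_apply]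
          exact (hb1 _).symm
        · rw [LinearMap.comp_apply, LinearMap.comp_apply, LinearEquiv.coe_coe, hb2', map_smul, Basis.equiv_apply, Basis.equiv_apply]
          exact (hb2 _).symm
      exact LinearMap.congr_fun h1 v
    · intro v
      have h1 : v = ∑ i, d.repr v i • d i := (d.sum_repr v).symm
      set s := d.repr v with hs
      have h2 : y v = ∑ i : κ ⊕ κ, (Sum.elim (fun i => (ps i).1 * s (Sum.inl i) + (Q₀ (d (Sum.inr i)) * (ps i).2) * s (Sum.inr i))
          (fun i => (Q₀ (d (Sum.inl i)) * (ps i).2) * s (Sum.inl i) - (ps i).1 * s (Sum.inr i)) i : F) • d i := by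
        conv_lhs => rw [h1]
        rw [map_sum, Fintype.sum_sum_type, Fintype.sum_sum_type]
        simp only [map_smul, hyd1, hyd2, Sum.elim_inl, Sum.elim_inr]
        rw [← Finset.sum_add_distrib, ← Finset.sum_add_distrib]
        apply Finset.sum_congr rfl
        intro i _
        module
      rw [h2, q_orth d hd1]
      conv_rhs => rw [h1]
      rw [q_orth d hd1, Finset.mul_sum, Fintype.sum_sum_type, Fintype.sum_sum_type, ← Finset.sum_add_distrib, ← Finset.sum_add_distrib]
      apply Finset.sum_congr rfl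
      intro i _
      simp only [Sum.elim_inl, Sum.elim_inr]
      rw [← hps i]
      ring

end

end Cfsg.Agent.QEl
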